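import Mathlib
import Cfsg.Prelude.Def_PLocal

set_option autoImplicit false

namespace Cfsg.Agent.Lib.KnownSimple

/-- All `p`-subgroups of `G` are commutative. -/
def AllPAb (p : ℕ) (G : Type*) [Group G] : Prop :=
  ∀ P : Subgroup G, IsPGroup p P → ∀ a ∈ P, ∀ b ∈ P, a * b = b * a

theorem AllPAb.of_surjective {p : ℕ} [Fact p.Prime] {G H : Type*} [Group G] [Group H] [Finite G]
    (f : G →* H) (hf : Function.Surjective f) (h : AllPAb p G) : AllPAb p H := by
  intro P hP a ha b hb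
  have : Finite H := Finite.of_surjective f hf
  obtain ⟨Q, hPQ⟩ := hP.exists_le_sylow
  obtain ⟨S, rfl⟩ := Sylow.mapSurjective_surjective hf p Q
  obtain ⟨x, hx, rfl⟩ := hPQ ha
  obtain ⟨y, hy, rfl⟩ := hPQ hb
  rw [← map_mul, ← map_mul, h S S.2 x hx y hy]

theorem AllPAb.of_injective {p : ℕ} {G H : Type*} [Group G] [Group H]
    (f : G →* H) (hf : Function.Injective f) (h : AllPAb p H) : AllPAb p G := by
  intro P hP a ha b hb
  apply hf
  rw [map_mul, map_mul]
  exact h (P.map f) (hP.map f) _ ⟨a, ha, rfl⟩ _ ⟨b, hb, rfl⟩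

/-- All `p`-subgroups of `SL₂(K)` are commutative, when `K` is a finite field of characteristic `p`. -/
theorem allPAb_SL2 {p : ℕ} [Fact p.Prime] {K : Type*} [Field K] [Fintype K] [CharP K p] :
    AllPAb p (Matrix.SpecialLinearGroup (Fin 2) K) := by
  classical
  intro P hP a ha b hb
  have hp : p.Prime := Fact.out
  -- the action on column vectors
  letI : MulAction P (Fin 2 → K) :=
    { smul := fun g v => ((g : Matrix.SpecialLinearGroup (Fin 2) K) : Matrix (Fin 2) (Fin 2) K).mulVec v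
      one_smul := fun v => by
        show (1 : Matrix (Fin 2) (Fin 2) K).mulVec v = v
        simp
      mul_smul := fun g h v => by
        show (((g : Matrix.SpecialLinearGroup (Fin 2) K) : Matrix (Fin 2) (Fin 2) K) * ((h : Matrix.SpecialLinearGroup (Fin 2) K) : Matrix (Fin 2) (Fin 2) K)).mulVec v = _
        rw [← Matrix.mulVec_mulVec]
        rfl }
  have hsmul : ∀ (g : P) (v : Fin 2 → K), g • v = ((g : Matrix.SpecialLinearGroup (Fin 2) K) : Matrix (Fin 2) (Fin 2) K).mulVec v := fun _ _ => rfl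
  have hcard : p ∣ Nat.card (Fin 2 → K) := by
    obtain ⟨n, hn, hcard⟩ := FiniteField.card K p
    have hne : 2 ≠ 0 := by norm_num
    rw [Nat.card_fun, Nat.card_eq_fintype_card, Nat.card_eq_fintype_card, hcard]
    simp only [Fintype.card_fin]
    exact dvd_pow (dvd_pow_self p n.pos.ne') hne
  have h0 : (0 : Fin 2 → K) ∈ MulAction.fixedPoints P (Fin 2 → K) := by
    intro g
    rw [hsmul]; simp
  obtain ⟨v, hv, hne⟩ := hP.exists_fixed_point_of_prime_dvd_card_of_fixed_point (Fin 2 → K) hcard h0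
  have hfix : ∀ g ∈ P, ((g : Matrix.SpecialLinearGroup (Fin 2) K) : Matrix (Fin 2) (Fin 2) K).mulVec v = v := fun g hg => hv ⟨g, hg⟩
  -- a matrix with first column v
  have hv0 : v ≠ 0 := fun h => hne h.symm
  obtain ⟨B, hB, hBv⟩ : ∃ B : Matrix (Fin 2) (Fin 2) K, B.det ≠ 0 ∧ (B 0 0 = v 0 ∧ B 1 0 = v 1) := by
    by_cases h1 : v 0 = 0
    · have h2 : v 1 ≠ 0 := by
        intro h2
        apply hv0
        funext i
        fin_cases i <;> simp [h1, h2]
      refine ⟨!![v 0, 1; v 1, 0], ?_, by simp, by simp⟩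
      rw [Matrix.det_fin_two_of]
      simpa [h1] using h2
    · refine ⟨!![v 0, 0; v 1, 1], ?_, by simp, by simp⟩
      rw [Matrix.det_fin_two_of]
      simpa using h1
  have hBe : B.mulVec ![1, 0] = v := by
    funext i
    fin_cases i
    · simp [Matrix.mulVec, dotProduct, Fin.sum_univ_two, hBv.1]
    · simp [Matrix.mulVec, dotProduct, Fin.sum_univ_two, hBv.2]
  have hBu : IsUnit B.det := isUnit_iff_ne_zero.mpr hB
  -- conjugated elements are upper unitriangular
  have hform : ∀ g ∈ P, ∃ x : K, B⁻¹ * ((g : Matrix.SpecialLinearGroup (Fin 2) K) : Matrix (Fin 2) (Fin 2) K) * B = !![1, x; 0, 1] := by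
    intro g hg
    set M := B⁻¹ * ((g : Matrix.SpecialLinearGroup (Fin 2) K) : Matrix (Fin 2) (Fin 2) K) * B with hM
    have hMe : M.mulVec ![1, 0] = ![1, 0] := by
      rw [hM, ← Matrix.mulVec_mulVec, ← Matrix.mulVec_mulVec, hBe, hfix g hg, ← hBe, Matrix.mulVec_mulVec,
        Matrix.nonsing_inv_mul _ hBu, Matrix.one_mulVec]
    have h00 : M 0 0 = 1 := by
      have := congrFun hMe 0
      simpa [Matrix.mulVec, dotProduct, Fin.sum_univ_two] using this
    have h10 : M 1 0 = 0 := by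
      have := congrFun hMe 1
      simpa [Matrix.mulVec, dotProduct, Fin.sum_univ_two] using this
    have hdet : M.det = 1 := by
      rw [hM, Matrix.det_mul, Matrix.det_mul, g.2, mul_one, ← Matrix.det_mul, Matrix.nonsing_inv_mul _ hBu, Matrix.det_one]
    have h11 : M 1 1 = 1 := by
      rw [Matrix.det_fin_two, h00, h10] at hdet
      simpa using hdet
    refine ⟨M 0 1, ?_⟩
    ext i j
    fin_cases i <;> fin_cases j <;> simp [h00, h10, h11]
  obtain ⟨x, hx⟩ := hform a ha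
  obtain ⟨y, hy⟩ := hform b hb
  apply Subtype.ext
  show (a : Matrix (Fin 2) (Fin 2) K) * (b : Matrix (Fin 2) (Fin 2) K) = (b : Matrix (Fin 2) (Fin 2) K) * (a : Matrix (Fin 2) (Fin 2) K)
  have hBinv : B * B⁻¹ = 1 := Matrix.mul_nonsing_inv _ hBu
  have hBinv' : B⁻¹ * B = 1 := Matrix.nonsing_inv_mul _ hBu
  have hcomm : (B⁻¹ * (a : Matrix (Fin 2) (Fin 2) K) * B) * (B⁻¹ * (b : Matrix (Fin 2) (Fin 2) K) * B) =
      (B⁻¹ * (b : Matrix (Fin 2) (Fin 2) K) * B) * (B⁻¹ * (a : Matrix (Fin 2) (Fin 2) K) * B) := by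
    rw [hx, hy]
    ext i j
    fin_cases i <;> fin_cases j <;> simp [Matrix.mul_apply, Fin.sum_univ_two, add_comm]
  have hexp : ∀ X Y : Matrix (Fin 2) (Fin 2) K, (B⁻¹ * X * B) * (B⁻¹ * Y * B) = B⁻¹ * (X * Y) * B := by
    intro X Y
    calc (B⁻¹ * X * B) * (B⁻¹ * Y * B) = B⁻¹ * X * (B * B⁻¹) * Y * B := by simp only [Matrix.mul_assoc]
      _ = B⁻¹ * (X * Y) * B := by rw [hBinv, Matrix.mul_one]; simp only [Matrix.mul_assoc]
  rw [hexp, hexp] at hcomm
  have h1 : B * (B⁻¹ * ((a : Matrix (Fin 2) (Fin 2) K) * b) * B) * B⁻¹ = B * (B⁻¹ * ((b : Matrix (Fin 2) (Fin 2) K) * a) * B) * B⁻¹ := by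
    rw [hcomm]
  have hsimp : ∀ X : Matrix (Fin 2) (Fin 2) K, B * (B⁻¹ * X * B) * B⁻¹ = X := by
    intro X
    calc B * (B⁻¹ * X * B) * B⁻¹ = (B * B⁻¹) * X * (B * B⁻¹) := by simp only [Matrix.mul_assoc]
      _ = X := by rw [hBinv, Matrix.one_mul, Matrix.mul_one]
  rwa [hsimp, hsimp] at h1

/-- The unitriangular matrices. -/
def tri (p : ℕ) (a b c : ZMod p) : Matrix (Fin 3) (Fin 3) (ZMod p) := !![1, a, b; 0, 1, c; 0, 0, 1]

theorem tri_mul (p : ℕ) (a b c a' b' c' : ZMod p) :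
    tri p a b c * tri p a' b' c' = tri p (a + a') (b' + a * c' + b) (c + c') := by
  ext i j
  fin_cases i <;> fin_cases j <;> simp [tri, Matrix.mul_apply, Fin.sum_univ_three, add_comm]

theorem tri_det (p : ℕ) (a b c : ZMod p) : (tri p a b c).det = 1 := by
  simp [tri, Matrix.det_fin_three]

theorem tri_zero (p : ℕ) : tri p 0 0 0 = 1 := by
  ext i j
  fin_cases i <;> fin_cases j <;> simp [tri]

/-- `Qd(p)` has a non-commutative `p`-subgroup. -/
theorem not_allPAb_qd (p : ℕ) [Fact p.Prime] : ¬ AllPAb p (Cfsg.qd p) := by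
  classical
  intro h
  have hp : p.Prime := Fact.out
  have hmem : ∀ a b c : ZMod p, (⟨tri p a b c, tri_det p a b c⟩ : Matrix.SpecialLinearGroup (Fin 3) (ZMod p)) ∈ Cfsg.qd p := by
    intro a b c
    apply Subgroup.subset_closure
    refine ⟨?_, ?_, ?_⟩ <;> simp [tri]
  let T : ZMod p → ZMod p → ZMod p → Cfsg.qd p := fun a b c => ⟨⟨tri p a b c, tri_det p a b c⟩, hmem a b c⟩
  have hTmul : ∀ a b c a' b' c', T a b c * T a' b' c' = T (a + a') (b' + a * c' + b) (c + c') := by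
    intro a b c a' b' c'
    apply Subtype.ext
    apply Subtype.ext
    exact tri_mul p a b c a' b' c'
  have hTone : T 0 0 0 = 1 := by
    apply Subtype.ext
    apply Subtype.ext
    exact tri_zero p
  let U : Subgroup (Cfsg.qd p) :=
    { carrier := {M | ∃ a b c, M = T a b c}
      mul_mem' := by
        rintro _ _ ⟨a, b, c, rfl⟩ ⟨a', b', c', rfl⟩
        exact ⟨_, _, _, hTmul a b c a' b' c'⟩
      one_mem' := ⟨0, 0, 0, hTone.symm⟩
      inv_mem' := by
        rintro _ ⟨a, b, c, rfl⟩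
        refine ⟨-a, a * c - b, -c, ?_⟩
        apply inv_eq_of_mul_eq_one_right
        rw [hTmul, ← hTone]
        congr 1 <;> ring }
  have hU : IsPGroup p U := by
    rintro ⟨M, a, b, c, rfl⟩
    refine ⟨2, ?_⟩
    apply Subtype.ext
    apply Subtype.ext
    apply Subtype.ext
    show (tri p a b c) ^ (p ^ 2) = 1
    haveI : ExpChar (Matrix (Fin 3) (Fin 3) (ZMod p)) p := ExpChar.prime hp
    have h3 : (tri p a b c - 1) ^ 3 = 0 := by
      ext i j
      fin_cases i <;> fin_cases j <;> simp [tri, pow_succ, Matrix.mul_apply, Fin.sum_univ_three, Matrix.one_apply]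
    have h4 := sub_pow_expChar_pow_of_commute (R := Matrix (Fin 3) (Fin 3) (ZMod p)) p 2 (x := tri p a b c) (y := 1) (Commute.one_right _)
    have h5 : 3 ≤ p ^ 2 := by
      have := hp.two_le
      nlinarith
    rw [pow_eq_zero_of_le h5 h3, one_pow] at h4
    exact sub_eq_zero.mp h4.symm
  have h1 := h U hU (T 1 0 0) ⟨1, 0, 0, rfl⟩ (T 0 0 1) ⟨0, 0, 1, rfl⟩
  rw [hTmul, hTmul] at h1
  have h2 := congrArg (fun x : Cfsg.qd p => ((x : Matrix.SpecialLinearGroup (Fin 3) (ZMod p)) : Matrix (Fin 3) (Fin 3) (ZMod p)) 0 2) h1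
  simp [T, tri] at h2

end Cfsg.Agent.Lib.KnownSimple
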