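import Mathlib

set_option autoImplicit false

namespace Cfsg.Agent.Lib.KnownSimple

open Matrix

variable {F : Type*} [Field F]

/-- If a `k × k` submatrix of `A` is the identity then `A` has rank at least `k`. -/
theorem le_rank_of_submatrix_eq_one {m n : Type*} [Fintype m] [Fintype n] [DecidableEq m] [DecidableEq n]
    {k : ℕ} (A : Matrix m n F) (r : Fin k → m) (c : Fin k → n)
    (h : A.submatrix r c = 1) : k ≤ A.rank := by
  have e : A.submatrix r c = (Matrix.of fun i j => if j = r i then (1 : F) else 0) * A *
      (Matrix.of fun i j => if i = c j then (1 : F) else 0) := by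
    ext i j
    simp [Matrix.mul_apply, Finset.sum_ite_eq']
  have h1 : (1 : Matrix (Fin k) (Fin k) F).rank ≤ A.rank := by
    rw [← h, e]
    exact (Matrix.rank_mul_le_left _ _).trans (Matrix.rank_mul_le_right _ _)
  simpa using h1

/-- A matrix that factors through `Fin k` has rank at most `k`. -/
theorem rank_le_of_eq_mul {m n : Type*} [Fintype m] [Fintype n] [DecidableEq m] [DecidableEq n]
    {k : ℕ} (A : Matrix m n F) (P : Matrix m (Fin k) F) (Q : Matrix (Fin k) n F)
    (h : A = P * Q) : A.rank ≤ k := by
  rw [h]
  refine (Matrix.rank_mul_le_right _ _).trans ?_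
  have h1 := Matrix.rank_le_card_height Q
  rwa [Fintype.card_fin] at h1

end Cfsg.Agent.Lib.KnownSimple
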