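import Mathlib

set_option autoImplicit false

namespace Cfsg.Agent.Lib.KnownSimple

open Module

/-- Normal form of a square-zero linear map: a basis `x_i, y_i, z_j` with `T x_i = y_i`, `T y_i = 0`, `T z_j = 0`. -/
theorem exists_basis_of_sq_zero {K V : Type*} [Field K] [AddCommGroup V] [Module K V] [FiniteDimensional K V]
    (T : V →ₗ[K] V) (hT : T ∘ₗ T = 0) :
    ∃ (r s : ℕ) (e : Basis (Fin r ⊕ (Fin r ⊕ Fin s)) K V), r = finrank K (LinearMap.range T) ∧
      (∀ i, T (e (Sum.inl i)) = e (Sum.inr (Sum.inl i))) ∧ (∀ i, T (e (Sum.inr i)) = 0) := by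
  classical
  have hTT : ∀ v, T (T v) = 0 := fun v => by
    have := congrArg (fun f => f v) hT
    simpa using this
  set R := LinearMap.range T with hR
  set N := LinearMap.ker T with hN
  have hRN : R ≤ N := by
    rintro _ ⟨v, rfl⟩
    exact hTT v
  obtain ⟨Q, hQ⟩ := Submodule.exists_isCompl R
  set Z : Submodule K V := N ⊓ Q with hZ
  let r := finrank K R
  let s := finrank K Z
  let yb : Basis (Fin r) K R := Module.finBasisOfFinrankEq K R rfl
  let zb : Basis (Fin s) K Z := Module.finBasisOfFinrankEq K Z rfl
  have hx : ∀ i, ∃ v, T v = (yb i : V) := fun i => (yb i).2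
  choose x hx using hx
  let y : Fin r → V := fun i => (yb i : V)
  let z : Fin s → V := fun j => (zb j : V)
  have hy : LinearIndependent K y :=
    yb.linearIndependent.map' R.subtype (Submodule.ker_subtype R)
  have hz : LinearIndependent K z :=
    zb.linearIndependent.map' Z.subtype (Submodule.ker_subtype Z)
  have hyzdis : Disjoint (Submodule.span K (Set.range y)) (Submodule.span K (Set.range z)) := by
    have h1 : Submodule.span K (Set.range y) ≤ R := by
      rw [Submodule.span_le]; rintro _ ⟨i, rfl⟩; exact (yb i).2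
    have h2 : Submodule.span K (Set.range z) ≤ Q := by
      rw [Submodule.span_le]; rintro _ ⟨i, rfl⟩; exact (zb i).2.2
    exact hQ.disjoint.mono h1 h2
  have hyz : LinearIndependent K (Sum.elim y z) := hy.sum_type hz hyzdis
  have hxli : LinearIndependent K x := by
    apply LinearIndependent.of_comp T
    have : (T ∘ x) = y := funext hx
    rw [this]; exact hy
  have hdis : Disjoint (Submodule.span K (Set.range x)) (Submodule.span K (Set.range (Sum.elim y z))) := by
    have h1 : Submodule.span K (Set.range (Sum.elim y z)) ≤ N := by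
      rw [Submodule.span_le]
      rintro _ ⟨i | j, rfl⟩
      · exact hRN (yb i).2
      · exact (zb j).2.1
    refine Disjoint.mono_right h1 ?_
    rw [Submodule.disjoint_def]
    intro w hw hwN
    obtain ⟨c, rfl⟩ := (Submodule.mem_span_range_iff_exists_fun K).mp hw
    have h3 : ∑ i, c i • y i = 0 := by
      have h4 : T (∑ i, c i • x i) = 0 := hwN
      rw [map_sum] at h4
      simpa [hx, y] using h4
    have h5 := Fintype.linearIndependent_iff.mp hy c h3
    simp [h5]
  have hli : LinearIndependent K (Sum.elim x (Sum.elim y z)) := hxli.sum_type hyz hdis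
  have hcard : Fintype.card (Fin r ⊕ (Fin r ⊕ Fin s)) = finrank K V := by
    have h1 : finrank K R + finrank K N = finrank K V := LinearMap.finrank_range_add_finrank_ker T
    have h2 := Submodule.finrank_sup_add_finrank_inf_eq R Z
    have h3 : R ⊔ Z = N := by
      have := (sup_inf_assoc_of_le Q hRN)
      rw [hZ, inf_comm N Q, ← this, hQ.sup_eq_top]
      simp
    have h4 : R ⊓ Z = ⊥ := by
      apply le_bot_iff.mp
      calc R ⊓ Z ≤ R ⊓ Q := inf_le_inf_left _ inf_le_right
        _ = ⊥ := hQ.inf_eq_bot
    rw [h3, h4, finrank_bot] at h2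
    simp only [Fintype.card_sum, Fintype.card_fin]
    simp only [r, s]
    omega
  have hspan := hli.span_eq_top_of_card_eq_finrank' hcard
  let e : Basis (Fin r ⊕ (Fin r ⊕ Fin s)) K V := Basis.mk hli (le_of_eq hspan.symm)
  have he : ⇑e = Sum.elim x (Sum.elim y z) := Basis.coe_mk _ _
  refine ⟨r, s, e, rfl, ?_, ?_⟩
  · intro i
    rw [he]
    simpa using hx i
  · rintro (i | j)
    · rw [he]
      exact hRN (yb i).2
    · rw [he]
      exact (zb j).2.1

end Cfsg.Agent.Lib.KnownSimple
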