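import Mathlib
import Cfsg.Agent.Lib.KnownSimple.SylowPerm
import Cfsg.Agent.Lib.PGroup.Basic

set_option autoImplicit false

namespace Cfsg.Agent.Lib.KnownSimple.SylowMax

open Equiv Cfsg.Agent.Lib.KnownSimple.SylowPerm
open scoped Pointwise

universe u

theorem not_unique_of_sup {G : Type*} [Group G] [Finite G] {R H₁ H₂ : Subgroup G} (h1 : H₁ ≠ ⊤) (h2 : H₂ ≠ ⊤)
    (hs : H₁ ⊔ H₂ = ⊤) (hR1 : R ≤ H₁) (hR2 : R ≤ H₂) : ¬ ∃! M : Subgroup G, IsCoatom M ∧ R ≤ M := by
  rintro ⟨M, ⟨hM, hRM⟩, huniq⟩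
  obtain ⟨M₁, hM₁, hle₁⟩ := (eq_top_or_exists_le_coatom H₁).resolve_left h1
  obtain ⟨M₂, hM₂, hle₂⟩ := (eq_top_or_exists_le_coatom H₂).resolve_left h2
  have e1 := huniq M₁ ⟨hM₁, hR1.trans hle₁⟩
  have e2 := huniq M₂ ⟨hM₂, hR2.trans hle₂⟩
  have : (⊤ : Subgroup G) ≤ M := by
    rw [← hs]
    exact sup_le (hle₁.trans e1.le) (hle₂.trans e2.le)
  exact hM.1 (top_le_iff.mp this)

variable {Ω : Type u} [Fintype Ω] [DecidableEq Ω]

theorem odd_choose (R : Sylow 2 (Perm Ω)) (T : Finset Ω) (hT : ∀ r ∈ (R : Subgroup (Perm Ω)), ∀ x ∈ T, r x ∈ T) :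
    Odd ((Fintype.card Ω).choose T.card) := by
  classical
  let s : Set.powersetCard Ω T.card := ⟨T, rfl⟩
  haveI : MulAction.IsPretransitive (Perm Ω) (Set.powersetCard Ω T.card) := Set.powersetCard.isPretransitive
  have hidx := MulAction.index_stabilizer_of_transitive (Perm Ω) s
  have hcard : Nat.card (Set.powersetCard Ω T.card) = (Fintype.card Ω).choose T.card := by
    rw [Set.powersetCard.card, Nat.card_eq_fintype_card]
  have hle : (R : Subgroup (Perm Ω)) ≤ MulAction.stabilizer (Perm Ω) s := by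
    intro r hr
    rw [MulAction.mem_stabilizer_iff]
    apply Subtype.ext
    rw [Set.powersetCard.coe_smul]
    show r • T = T
    apply Finset.eq_of_subset_of_card_le
    · intro y hy
      obtain ⟨x, hx, rfl⟩ := Finset.mem_smul_finset.mp hy
      exact hT r hr x hx
    · rw [Finset.card_smul_finset]
  have hdvd := Subgroup.index_dvd_of_le hle
  rw [hidx, hcard] at hdvd
  rw [← Nat.not_even_iff_odd, even_iff_two_dvd]
  intro h2
  exact R.not_dvd_index (h2.trans hdvd)

theorem exists_fixed_of_odd (R : Sylow 2 (Perm Ω)) (hodd : Odd (Fintype.card Ω)) :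
    ∃ x, ∀ r ∈ (R : Subgroup (Perm Ω)), r x = x := by
  have hnd : ¬ 2 ∣ Nat.card Ω := by
    rw [Nat.card_eq_fintype_card]
    exact hodd.not_two_dvd_nat
  obtain ⟨x, hx⟩ := R.isPGroup'.nonempty_fixed_point_of_prime_not_dvd_card Ω hnd
  exact ⟨x, fun r hr => hx ⟨r, hr⟩⟩

theorem no_fixed_of_even (R : Sylow 2 (Perm Ω)) (heven : Even (Fintype.card Ω)) (x : Ω) :
    ∃ r ∈ (R : Subgroup (Perm Ω)), r x ≠ x := by
  by_contra hno
  push Not at hno
  have h1 := R.isPGroup'.exists_fixed_point_of_prime_dvd_card_of_fixed_point Ω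
    (by rw [Nat.card_eq_fintype_card]; exact heven.two_dvd) (a := x) (fun r => hno r r.2)
  obtain ⟨b, hb, hne⟩ := h1
  exact hne (eq_of_not_moved (maxIn_of_sylow R) hno (fun p hp => hb ⟨p, hp⟩))

theorem exists_pair_avoid {PS : Subgroup (Perm Ω)} (hPS : MaxIn (fun _ : Ω => ()) PS) (T : Finset Ω)
    (hT : ∀ t ∈ T, ∀ s, s ≠ t → swap t s ∈ PS → s ∈ T) (hc : T.card + 2 ≤ Fintype.card Ω) :
    ∃ u v, u ≠ v ∧ swap u v ∈ PS ∧ u ∉ T ∧ v ∉ T := by
  have hc' : 1 < (Tᶜ).card := by
    rw [Finset.card_compl]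
    omega
  obtain ⟨a, ha, b, hb, hab⟩ := Finset.one_lt_card.mp hc'
  rw [Finset.mem_compl] at ha hb
  have hmoved : ∃ u, u ∉ T ∧ ∃ p ∈ PS, p u ≠ u := by
    by_contra hno
    push Not at hno
    exact hab (eq_of_not_moved hPS (hno a ha) (hno b hb))
  obtain ⟨u, huT, hum⟩ := hmoved
  obtain ⟨v, hvu, hs⟩ := exists_partner hPS u hum
  refine ⟨u, v, Ne.symm hvu, hs, huT, ?_⟩
  intro hvT
  exact huT (hT v hvT u (Ne.symm hvu) (by rwa [swap_comm]))

/-- Transitivity of a Sylow `2`-subgroup on the points different from its fixed point, in degree `2^k+1`. -/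
theorem trans_of_pow (R : Sylow 2 (Perm Ω)) {k : ℕ} (hk : 1 ≤ k) (hn : Fintype.card Ω = 2 ^ k + 1) {x : Ω}
    (hx : ∀ r ∈ (R : Subgroup (Perm Ω)), r x = x) {a b : Ω} (ha : a ≠ x) (hb : b ≠ x) :
    ∃ r ∈ (R : Subgroup (Perm Ω)), r a = b := by
  classical
  let T : Finset Ω := Finset.univ.filter (fun z => ∃ r ∈ (R : Subgroup (Perm Ω)), r a = z)
  have hmem : ∀ z, z ∈ T ↔ ∃ r ∈ (R : Subgroup (Perm Ω)), r a = z := by
    intro z; simp [T]
  have hT : ∀ r ∈ (R : Subgroup (Perm Ω)), ∀ z ∈ T, r z ∈ T := by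
    intro r hr z hz
    obtain ⟨r', hr', rfl⟩ := (hmem z).mp hz
    exact (hmem _).mpr ⟨r * r', (R : Subgroup (Perm Ω)).mul_mem hr hr', rfl⟩
  have hodd := odd_choose R T hT
  have hxT : x ∉ T := by
    intro h
    obtain ⟨r, hr, hrx⟩ := (hmem x).mp h
    apply ha
    have := hx r hr
    exact r.injective (hrx.trans this.symm)
  have haT : a ∈ T := (hmem a).mpr ⟨1, Subgroup.one_mem _, rfl⟩
  have hle : T ⊆ Finset.univ.erase x := by
    intro z hz
    simp only [Finset.mem_erase, Finset.mem_univ, and_true]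
    rintro rfl
    exact hxT hz
  have hcle : T.card ≤ 2 ^ k := by
    have := Finset.card_le_card hle
    rw [Finset.card_erase_of_mem (Finset.mem_univ _), Finset.card_univ, hn] at this
    simpa using this
  by_cases heq : T.card = 2 ^ k
  · have h3 : T = Finset.univ.erase x := by
      apply Finset.eq_of_subset_of_card_le hle
      rw [Finset.card_erase_of_mem (Finset.mem_univ _), Finset.card_univ, hn, heq]
      simp
    have : b ∈ T := by rw [h3]; simp [hb]
    exact (hmem b).mp this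
  · exfalso
    have hpos : 0 < T.card := Finset.card_pos.mpr ⟨a, haT⟩
    obtain ⟨s, hs⟩ : ∃ s, T.card = s + 1 := ⟨T.card - 1, by omega⟩
    rw [hs, hn, Nat.choose_succ_succ] at hodd
    have hs1 : s + 1 ≠ 2 ^ k := by omega
    have h1 : 2 ∣ (2 ^ k).choose (s + 1) := Nat.prime_two.dvd_choose_pow (by omega) hs1
    have h0 : s ≠ 0 := by
      rintro rfl
      -- `T` is a singleton: `a` is a fixed point.
      have h5 : T = {a} := by
        apply Finset.eq_of_subset_of_card_le
        · intro z hz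
          obtain ⟨u, hu⟩ := Finset.card_eq_one.mp (by omega : T.card = 1)
          rw [hu] at hz haT
          simp only [Finset.mem_singleton] at hz haT
          simp [hz, haT]
        · rw [Finset.card_singleton]; omega
      apply ha
      apply eq_of_not_moved (maxIn_of_sylow R) _ hx
      intro p hp
      have : p a ∈ T := hT p hp a haT
      rw [h5] at this
      simpa using this
    have h2 : 2 ∣ (2 ^ k).choose s := Nat.prime_two.dvd_choose_pow h0 (by omega)
    have h3 : 2 ∣ (2 ^ k).choose s + (2 ^ k).choose (s + 1) := dvd_add h2 h1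
    rw [← even_iff_two_dvd] at h3
    exact (Nat.not_even_iff_odd.mpr hodd) h3

theorem preprimitive_of_base (H : Subgroup (Perm Ω)) (x : Ω) (h1 : ∀ b, ∃ g ∈ H, g x = b)
    (h2 : ∀ a b, a ≠ x → b ≠ x → ∃ g ∈ H, g x = x ∧ g a = b) : MulAction.IsPreprimitive H Ω := by
  haveI : MulAction.IsPretransitive H Ω := MulAction.IsPretransitive.of_orbit (x₀ := x) (fun b => by
    obtain ⟨g, hg, hgb⟩ := h1 b
    exact ⟨⟨g, hg⟩, hgb⟩)
  apply MulAction.IsPreprimitive.of_isTrivialBlock_base x
  intro B hxB hB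
  by_cases hs : ∃ a ∈ B, a ≠ x
  · obtain ⟨a, haB, hax⟩ := hs
    right
    ext b
    simp only [Set.mem_univ, iff_true]
    by_cases hb : b = x
    · rwa [hb]
    · obtain ⟨g, hg, hgx, hga⟩ := h2 a b hax hb
      have h3 : (⟨g, hg⟩ : H) • B = B := by
        apply MulAction.IsBlock.smul_eq_of_mem hB hxB
        show g x ∈ B
        rw [hgx]; exact hxB
      rw [← h3]
      exact ⟨a, haB, hga⟩
  · push Not at hs
    left
    intro u hu v hv
    rw [hs u hu, hs v hv]

theorem sym_reverse {k : ℕ} (hk : 2 ≤ k) (hn : Fintype.card Ω = 2 ^ k + 1) (R : Sylow 2 (Perm Ω)) :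
    ∃! M : Subgroup (Perm Ω), IsCoatom M ∧ (R : Subgroup (Perm Ω)) ≤ M := by
  have hodd : Odd (Fintype.card Ω) := by
    rw [hn]
    exact Even.add_one ((Nat.even_pow' (by omega)).mpr even_two)
  obtain ⟨x, hx⟩ := exists_fixed_of_odd R hodd
  have hP := maxIn_of_sylow R
  have hkey : ∀ H : Subgroup (Perm Ω), (R : Subgroup (Perm Ω)) ≤ H → (∃ h ∈ H, h x ≠ x) → H = ⊤ := by
    rintro H hRH ⟨h, hh, hhx⟩
    have hprim : MulAction.IsPreprimitive H Ω := by
      apply preprimitive_of_base H x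
      · intro b
        by_cases hb : b = x
        · exact ⟨1, H.one_mem, by simp [hb]⟩
        · obtain ⟨r, hr, hrb⟩ := trans_of_pow R (by omega) hn hx hhx hb
          exact ⟨r * h, H.mul_mem (hRH hr) hh, hrb⟩
      · intro a b ha hb
        obtain ⟨r, hr, hrb⟩ := trans_of_pow R (by omega) hn hx ha hb
        exact ⟨r, hRH hr, hx r hr, hrb⟩
    have hmoved : ∃ p ∈ (R : Subgroup (Perm Ω)), p (h x) ≠ h x := by
      by_contra hno
      push Not at hno
      exact hhx (eq_of_not_moved hP hno hx)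
    obtain ⟨y, hy, hs⟩ := exists_partner hP (h x) hmoved
    exact Equiv.Perm.subgroup_eq_top_of_isPreprimitive_of_isSwap_mem hprim (swap (h x) y)
      ⟨h x, y, Ne.symm hy, rfl⟩ (hRH hs)
  have hcard1 : 1 < Fintype.card Ω := by
    have : 0 < 2 ^ k := by positivity
    omega
  obtain ⟨a, hax⟩ := Fintype.exists_ne_of_one_lt_card hcard1 x
  let M : Subgroup (Perm Ω) := MulAction.stabilizer (Perm Ω) x
  have hmemM : ∀ σ : Perm Ω, σ ∈ M ↔ σ x = x := fun σ => Iff.rfl
  have hRM : (R : Subgroup (Perm Ω)) ≤ M := fun r hr => hx r hr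
  have hMtop : M ≠ ⊤ := by
    intro h
    have : swap x a ∈ M := by rw [h]; trivial
    rw [hmemM, swap_apply_left] at this
    exact hax this
  have hcoat : IsCoatom M := by
    refine ⟨hMtop, fun H hlt => hkey H (hRM.trans hlt.le) ?_⟩
    obtain ⟨h, hh, hnot⟩ := SetLike.exists_of_lt hlt
    exact ⟨h, hh, fun hh' => hnot ((hmemM h).mpr hh')⟩
  refine ⟨M, ⟨hcoat, hRM⟩, ?_⟩
  rintro M' ⟨hc, hle⟩
  have hle' : M' ≤ M := by
    intro y hy
    by_contra hyM
    exact hc.1 (hkey M' hle ⟨y, hy, fun h => hyM ((hmemM y).mpr h)⟩)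
  by_contra hne
  exact hMtop (hc.2 M (lt_of_le_of_ne hle' hne))

theorem comm_swap {a b c d : Ω} (hac : a ≠ c) (had : a ≠ d) (hbc : b ≠ c) (hbd : b ≠ d) :
    Commute (swap a b) (swap c d) := by
  have h := swap_apply_apply (swap a b) c d
  rw [swap_apply_of_ne_of_ne (Ne.symm hac) (Ne.symm hbc), swap_apply_of_ne_of_ne (Ne.symm had) (Ne.symm hbd)] at h
  show swap a b * swap c d = swap c d * swap a b
  calc swap a b * swap c d = swap a b * swap c d * (swap a b)⁻¹ * swap a b := by group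
    _ = swap c d * swap a b := by rw [← h]

/-- Producing a `3`-cycle. -/
theorem exists_three_cycle (RS : Sylow 2 (Perm Ω)) (hn : 9 ≤ Fintype.card Ω) {x : Ω}
    (hx : ∀ r ∈ (RS : Subgroup (Perm Ω)), r x = x) (H : Subgroup (Perm Ω))
    (hR : ∀ σ ∈ (RS : Subgroup (Perm Ω)), σ ∈ alternatingGroup Ω → σ ∈ H) {h : Perm Ω} (hh : h ∈ H)
    (hhx : h x ≠ x) : ∃ g ∈ H, Perm.IsThreeCycle g := by
  have hP := maxIn_of_sylow RS
  have hP2 := hP.isP
  have hpart : ∀ z, z ≠ x → ∃ z', z' ≠ z ∧ swap z z' ∈ (RS : Subgroup (Perm Ω)) := by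
    intro z hz
    apply exists_partner hP z
    by_contra hno
    push Not at hno
    exact hz (eq_of_not_moved hP hno hx)
  have hnotx : ∀ z, swap x z ∈ (RS : Subgroup (Perm Ω)) → z = x := by
    intro z hz
    have := hx _ hz
    rwa [swap_apply_left] at this
  have hnx : ∀ u v, u ≠ v → swap u v ∈ (RS : Subgroup (Perm Ω)) → u ≠ x := by
    rintro u v huv hs rfl
    exact huv (hnotx v hs).symm
  have hev : ∀ a b u v : Ω, a ≠ b → u ≠ v → swap a b ∈ (RS : Subgroup (Perm Ω)) →
      swap u v ∈ (RS : Subgroup (Perm Ω)) → swap a b * swap u v ∈ H := by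
    intro a b u v hab huv h1 h2
    apply hR _ (Subgroup.mul_mem _ h1 h2)
    rw [Perm.mem_alternatingGroup, map_mul, Perm.sign_swap hab, Perm.sign_swap huv]
    simp
  set w := h⁻¹ x with hw
  have hhw : h w = x := by simp [hw]
  have hwx : w ≠ x := by
    intro hwx
    apply hhx
    rw [← hwx, hhw, hwx]
  obtain ⟨w', hw', hsw⟩ := hpart w hwx
  set a₁ := h w' with ha₁
  have ha₁x : a₁ ≠ x := by
    intro h1
    apply hw'
    apply h.injective
    rw [hhw]
    exact h1
  obtain ⟨a₂, ha₂, hsa⟩ := hpart a₁ ha₁x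
  have ha₂x : a₂ ≠ x := hnx a₂ a₁ ha₂ (by rwa [swap_comm])
  set e := h⁻¹ a₂ with he
  have hhe : h e = a₂ := by simp [he]
  have hcard6 : 6 ≤ Fintype.card Ω := by omega
  have hpq : ∃ p q, p ≠ q ∧ swap p q ∈ (RS : Subgroup (Perm Ω)) ∧ p ≠ w ∧ p ≠ w' ∧ p ≠ e ∧ q ≠ w ∧ q ≠ w' ∧ q ≠ e := by
    by_cases hex : e = x
    · obtain ⟨p, q, hpq, hs, hp, hq⟩ := exists_third hcard6 hP (Ne.symm hw') (Ne.symm hw') hsw hsw
      simp only [Finset.mem_insert, Finset.mem_singleton, not_or] at hp hq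
      refine ⟨p, q, hpq, hs, hp.1, hp.2.1, ?_, hq.1, hq.2.1, ?_⟩
      · rw [hex]; exact hnx p q hpq hs
      · rw [hex]; exact hnx q p (Ne.symm hpq) (by rwa [swap_comm])
    · obtain ⟨e', he', hse⟩ := hpart e hex
      obtain ⟨p, q, hpq, hs, hp, hq⟩ := exists_third hcard6 hP (Ne.symm hw') (Ne.symm he') hsw hse
      simp only [Finset.mem_insert, Finset.mem_singleton, not_or] at hp hq
      exact ⟨p, q, hpq, hs, hp.1, hp.2.1, hp.2.2.1, hq.1, hq.2.1, hq.2.2.1⟩
  obtain ⟨p, q, hpq, hsp, hpw, hpw', hpe, hqw, hqw', hqe⟩ := hpq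
  set c := h p with hc
  set d := h q with hd
  have hcd : c ≠ d := fun h1 => hpq (h.injective h1)
  have hcx : c ≠ x := fun h1 => hpw (h.injective (h1.trans hhw.symm))
  have hdx : d ≠ x := fun h1 => hqw (h.injective (h1.trans hhw.symm))
  have hca₁ : c ≠ a₁ := fun h1 => hpw' (h.injective h1)
  have hda₁ : d ≠ a₁ := fun h1 => hqw' (h.injective h1)
  have hca₂ : c ≠ a₂ := fun h1 => hpe (h.injective (h1.trans hhe.symm))
  have hda₂ : d ≠ a₂ := fun h1 => hqe (h.injective (h1.trans hhe.symm))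
  have hs1 : swap x a₁ * swap c d ∈ H := by
    have h1 := H.mul_mem (H.mul_mem hh (hev w w' p q (Ne.symm hw') hpq hsw hsp)) (H.inv_mem hh)
    have h2 : h * (swap w w' * swap p q) * h⁻¹ = (h * swap w w' * h⁻¹) * (h * swap p q * h⁻¹) := by group
    rw [h2, ← swap_apply_apply, ← swap_apply_apply, hhw] at h1
    exact h1
  obtain ⟨c', hc', hsc⟩ := hpart c hcx
  obtain ⟨d', hd', hsd⟩ := hpart d hdx
  -- a pair avoiding everything
  have hT : ∀ t ∈ ({a₁, a₂, c, c', d, d'} : Finset Ω), ∀ s, s ≠ t → swap t s ∈ (RS : Subgroup (Perm Ω)) →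
      s ∈ ({a₁, a₂, c, c', d, d'} : Finset Ω) := by
    intro t ht s hs hts
    simp only [Finset.mem_insert, Finset.mem_singleton] at ht ⊢
    rcases ht with rfl | rfl | rfl | rfl | rfl | rfl
    · have := partner_unique hP2 (Ne.symm ha₂) (Ne.symm hs) hsa hts
      simp [this]
    · have := partner_unique hP2 ha₂ (Ne.symm hs) (by rwa [swap_comm]) hts
      simp [this]
    · have := partner_unique hP2 (Ne.symm hc') (Ne.symm hs) hsc hts
      simp [this]
    · have := partner_unique hP2 hc' (Ne.symm hs) (by rwa [swap_comm]) hts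
      simp [this]
    · have := partner_unique hP2 (Ne.symm hd') (Ne.symm hs) hsd hts
      simp [this]
    · have := partner_unique hP2 hd' (Ne.symm hs) (by rwa [swap_comm]) hts
      simp [this]
  have hTc : ({a₁, a₂, c, c', d, d'} : Finset Ω).card + 2 ≤ Fintype.card Ω := by
    have : ({a₁, a₂, c, c', d, d'} : Finset Ω).card ≤ 6 := Finset.card_le_six
    omega
  obtain ⟨e₁, f₁, hef, hse₁, he₁, hf₁⟩ := exists_pair_avoid hP _ hT hTc
  simp only [Finset.mem_insert, Finset.mem_singleton, not_or] at he₁ hf₁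
  have hs2 : swap a₁ a₂ * swap e₁ f₁ ∈ H := hev _ _ _ _ (Ne.symm ha₂) hef hsa hse₁
  have he₁x : e₁ ≠ x := hnx e₁ f₁ hef hse₁
  have hf₁x : f₁ ≠ x := hnx f₁ e₁ (Ne.symm hef) (by rwa [swap_comm])
  have hα : Perm.IsThreeCycle (swap x a₁ * swap a₁ a₂) := by
    rw [swap_comm x a₁]
    exact Perm.isThreeCycle_swap_mul_swap_same ha₁x (Ne.symm ha₂) (Ne.symm ha₂x)
  have h3 : Commute (swap c d) (swap a₁ a₂) :=
    comm_swap hca₁ hca₂ hda₁ hda₂
  have h4 : Commute (swap c d) (swap x a₁) :=
    comm_swap hcx hca₁ hdx hda₁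
  have h5 : Commute (swap e₁ f₁) (swap x a₁) :=
    comm_swap he₁x he₁.1 hf₁x hf₁.1
  have h6 : Commute (swap e₁ f₁) (swap a₁ a₂) :=
    comm_swap he₁.1 he₁.2.1 hf₁.1 hf₁.2.1
  have h7 : Commute (swap c d) (swap e₁ f₁) :=
    comm_swap (Ne.symm he₁.2.2.1) (Ne.symm hf₁.2.2.1) (Ne.symm he₁.2.2.2.2.1) (Ne.symm hf₁.2.2.2.2.1)
  set α := swap x a₁ * swap a₁ a₂ with hαdef
  set β := swap c d * swap e₁ f₁ with hβdef
  have hg : (swap x a₁ * swap c d) * (swap a₁ a₂ * swap e₁ f₁) = α * β := by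
    rw [hαdef, hβdef, mul_assoc, mul_assoc, ← mul_assoc (swap c d), h3.eq, mul_assoc]
  have hβα : Commute β α := by
    rw [hβdef, hαdef]
    exact Commute.mul_left (Commute.mul_right h4 h3) (Commute.mul_right h5 h6)
  have hββ : β * β = 1 := by
    rw [hβdef]
    calc swap c d * swap e₁ f₁ * (swap c d * swap e₁ f₁)
        = swap c d * swap c d * (swap e₁ f₁ * swap e₁ f₁) := by
          rw [mul_assoc, ← mul_assoc (swap e₁ f₁), ← h7.eq]
          simp only [mul_assoc]
      _ = 1 := by simp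
  have hgg : α * β * (α * β) = α * α := by
    calc α * β * (α * β) = α * (β * α) * β := by group
      _ = α * (α * β) * β := by rw [hβα.eq]
      _ = α * α * (β * β) := by group
      _ = α * α := by rw [hββ, mul_one]
  have hmem : α * β ∈ H := by
    rw [← hg]
    exact H.mul_mem hs1 hs2
  refine ⟨α * β * (α * β), H.mul_mem hmem hmem, ?_⟩
  rw [hgg]
  exact hα.isThreeCycle_sq

theorem exists_sylow_over (R : Sylow 2 (alternatingGroup Ω)) : ∃ RS : Sylow 2 (Perm Ω),
    ∀ σ : Perm Ω, (σ ∈ (RS : Subgroup (Perm Ω)) ∧ σ ∈ alternatingGroup Ω) ↔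
      ∃ p ∈ (R : Subgroup (alternatingGroup Ω)), (p : Perm Ω) = σ := by
  let PA : Subgroup (Perm Ω) := (R : Subgroup (alternatingGroup Ω)).map (alternatingGroup Ω).subtype
  have hPA : IsPGroup 2 PA := R.isPGroup'.map _
  obtain ⟨PS, hle⟩ := hPA.exists_le_sylow
  refine ⟨PS, fun σ => ⟨?_, ?_⟩⟩
  · rintro ⟨h1, h2⟩
    have hQ : IsPGroup 2 ((PS : Subgroup (Perm Ω)).comap (alternatingGroup Ω).subtype) :=
      PS.isPGroup'.comap_of_injective _ (alternatingGroup Ω).subtype_injective
    have hPQ : (R : Subgroup (alternatingGroup Ω)) ≤ (PS : Subgroup (Perm Ω)).comap (alternatingGroup Ω).subtype := by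
      intro p hp
      exact hle ⟨p, hp, rfl⟩
    have := R.is_maximal' hQ hPQ
    have h3 : (⟨σ, h2⟩ : alternatingGroup Ω) ∈ (R : Subgroup (alternatingGroup Ω)) := by
      rw [← this]
      exact h1
    exact ⟨⟨σ, h2⟩, h3, rfl⟩
  · rintro ⟨p, hp, rfl⟩
    exact ⟨hle ⟨p, hp, rfl⟩, p.2⟩

theorem alt5_card (hn : Fintype.card Ω = 5) : Nat.card (alternatingGroup Ω) = 60 := by
  haveI : Nontrivial Ω := Fintype.one_lt_card_iff_nontrivial.mp (by omega)
  have h := two_mul_nat_card_alternatingGroup (α := Ω)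
  have e : Nat.card Ω = 5 := by rw [Nat.card_eq_fintype_card, hn]
  rw [Nat.card_perm, e] at h
  have h2 : Nat.factorial 5 = 120 := rfl
  omega

theorem alt5_top (hn : Fintype.card Ω = 5) (H : Subgroup (alternatingGroup Ω)) (h20 : 20 ∣ Nat.card H) : H = ⊤ := by
  have hG := alt5_card hn
  obtain ⟨k, hk⟩ := h20
  have hdvd : Nat.card H ∣ 60 := by
    rw [← hG]; exact Subgroup.card_subgroup_dvd_card _
  have hk60 : k ∣ 3 := by
    rw [hk] at hdvd
    have : 20 * k ∣ 20 * 3 := by simpa using hdvd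
    exact (Nat.mul_dvd_mul_iff_left (by norm_num)).mp this
  have hk13 : k = 1 ∨ k = 3 := (Nat.dvd_prime (by norm_num)).mp hk60
  rcases hk13 with rfl | rfl
  · exfalso
    have hidx : H.index = 3 := by
      have := H.card_mul_index
      rw [hG, hk] at this
      omega
    haveI : IsSimpleGroup (alternatingGroup Ω) := alternatingGroup.isSimpleGroup (by
      rw [Nat.card_eq_fintype_card, hn])
    rcases (inferInstance : H.normalCore.Normal).eq_bot_or_eq_top with h1 | h1
    · have h2 : H.normalCore.index ∣ (H.index).factorial := by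
        rw [Subgroup.normalCore_eq_ker, Subgroup.index_ker, Subgroup.index_eq_card, ← Nat.card_perm]
        exact Subgroup.card_subgroup_dvd_card (MulAction.toPermHom _ _).range
      rw [h1, Subgroup.index_bot, hG, hidx] at h2
      revert h2
      decide
    · have h2 : H = ⊤ := by
        rw [eq_top_iff, ← h1]
        exact Subgroup.normalCore_le H
      rw [h2, Subgroup.index_top] at hidx
      omega
  · apply Subgroup.eq_top_of_card_eq
    rw [hG, hk]

theorem alt_reverse {k : ℕ} (hk : 2 ≤ k) (hn : Fintype.card Ω = 2 ^ k + 1) (R : Sylow 2 (alternatingGroup Ω)) :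
    ∃! M : Subgroup (alternatingGroup Ω), IsCoatom M ∧ (R : Subgroup (alternatingGroup Ω)) ≤ M := by
  obtain ⟨RS, hRS⟩ := exists_sylow_over R
  have hodd : Odd (Fintype.card Ω) := by
    rw [hn]
    exact Even.add_one ((Nat.even_pow' (by omega)).mpr even_two)
  obtain ⟨x, hx⟩ := exists_fixed_of_odd RS hodd
  have hP := maxIn_of_sylow RS
  have hRmem : ∀ σ (hσ : σ ∈ alternatingGroup Ω), σ ∈ (RS : Subgroup (Perm Ω)) →
      (⟨σ, hσ⟩ : alternatingGroup Ω) ∈ (R : Subgroup (alternatingGroup Ω)) := by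
    intro σ hσ hσS
    obtain ⟨p, hp, hpσ⟩ := (hRS σ).mp ⟨hσS, hσ⟩
    have : p = ⟨σ, hσ⟩ := Subtype.ext hpσ
    rwa [← this]
  have hRle : ∀ p ∈ (R : Subgroup (alternatingGroup Ω)), (p : Perm Ω) ∈ (RS : Subgroup (Perm Ω)) :=
    fun p hp => ((hRS p).mpr ⟨p, hp, rfl⟩).1
  have h4k : 4 ≤ 2 ^ k := by
    calc 4 = 2 ^ 2 := by norm_num
      _ ≤ 2 ^ k := Nat.pow_le_pow_right (by norm_num) hk
  have hpart : ∀ z, z ≠ x → ∃ z', z' ≠ z ∧ swap z z' ∈ (RS : Subgroup (Perm Ω)) := by
    intro z hz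
    apply exists_partner hP z
    by_contra hno
    push Not at hno
    exact hz (eq_of_not_moved hP hno hx)
  have htrans : ∀ a b, a ≠ x → b ≠ x → ∃ r ∈ (R : Subgroup (alternatingGroup Ω)), (r : Perm Ω) a = b := by
    intro a b ha hb
    obtain ⟨r, hr, hrb⟩ := trans_of_pow RS (by omega) hn hx ha hb
    by_cases hev : r ∈ alternatingGroup Ω
    · exact ⟨⟨r, hev⟩, hRmem r hev hr, hrb⟩
    · obtain ⟨a', ha', hsa⟩ := hpart a ha
      have hT : ∀ t ∈ ({a, a'} : Finset Ω), ∀ s, s ≠ t → swap t s ∈ (RS : Subgroup (Perm Ω)) →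
          s ∈ ({a, a'} : Finset Ω) := by
        intro t ht s hs hts
        simp only [Finset.mem_insert, Finset.mem_singleton] at ht ⊢
        rcases ht with rfl | rfl
        · exact Or.inr (partner_unique hP.isP (Ne.symm ha') (Ne.symm hs) hsa hts)
        · exact Or.inl (partner_unique hP.isP ha' (Ne.symm hs) (by rwa [swap_comm]) hts)
      have hTc : ({a, a'} : Finset Ω).card + 2 ≤ Fintype.card Ω := by
        have : ({a, a'} : Finset Ω).card ≤ 2 := Finset.card_le_two
        omega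
      obtain ⟨u, v, huv, hs, hu, hv⟩ := exists_pair_avoid hP _ hT hTc
      simp only [Finset.mem_insert, Finset.mem_singleton, not_or] at hu hv
      have hσs : Perm.sign r = -1 := by
        rw [Perm.mem_alternatingGroup] at hev
        rcases Int.units_eq_one_or (Perm.sign r) with h | h
        · exact absurd h hev
        · exact h
      have hev2 : r * swap u v ∈ alternatingGroup Ω := by
        rw [Perm.mem_alternatingGroup, map_mul, hσs, Perm.sign_swap huv]
        simp
      refine ⟨⟨r * swap u v, hev2⟩, hRmem _ hev2 (Subgroup.mul_mem _ hr hs), ?_⟩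
      show (r * swap u v) a = b
      rw [Perm.mul_apply, swap_apply_of_ne_of_ne (Ne.symm hu.1) (Ne.symm hv.1), hrb]
  have hkey : ∀ H : Subgroup (alternatingGroup Ω), (R : Subgroup (alternatingGroup Ω)) ≤ H →
      (∃ h ∈ H, (h : Perm Ω) x ≠ x) → H = ⊤ := by
    rintro H hRH ⟨h, hh, hhx⟩
    by_cases h9 : 9 ≤ Fintype.card Ω
    · have hprim : MulAction.IsPreprimitive (H.map (alternatingGroup Ω).subtype) Ω := by
        apply preprimitive_of_base _ x
        · intro b
          by_cases hb : b = x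
          · exact ⟨1, Subgroup.one_mem _, by simp [hb]⟩
          · obtain ⟨r, hr, hrb⟩ := htrans _ b hhx hb
            exact ⟨(r * h : alternatingGroup Ω), ⟨r * h, H.mul_mem (hRH hr) hh, rfl⟩, hrb⟩
        · intro a b ha hb
          obtain ⟨r, hr, hrb⟩ := htrans a b ha hb
          exact ⟨r, ⟨r, hRH hr, rfl⟩, hx r (hRle r hr), hrb⟩
      obtain ⟨g, hg, hg3⟩ := exists_three_cycle RS h9 hx (H.map (alternatingGroup Ω).subtype)
        (fun σ hσ hσA => ⟨⟨σ, hσA⟩, hRH (hRmem σ hσA hσ), rfl⟩) ⟨h, hh, rfl⟩ hhx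
      have hle := Equiv.Perm.alternatingGroup_le_of_isPreprimitive_of_isThreeCycle_mem hprim hg3 hg
      rw [eq_top_iff]
      intro a _
      obtain ⟨b, hb, hba⟩ := hle a.2
      have : b = a := Subtype.ext hba
      rwa [← this]
    · have hk2 : k = 2 := by
        by_contra hne
        have : 8 ≤ 2 ^ k := by
          calc 8 = 2 ^ 3 := by norm_num
            _ ≤ 2 ^ k := Nat.pow_le_pow_right (by norm_num) (by omega)
        omega
      subst hk2
      have hn5 : Fintype.card Ω = 5 := by rw [hn]; norm_num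
      apply alt5_top hn5
      have hG := alt5_card hn5
      have h4R : 4 ∣ Nat.card (R : Subgroup (alternatingGroup Ω)) :=
        R.pow_dvd_card_of_pow_dvd_card (n := 2) (by rw [hG]; norm_num)
      have h4H : 4 ∣ Nat.card H := h4R.trans (Subgroup.card_dvd_of_le hRH)
      have horbit : MulAction.orbit H x = Set.univ := by
        ext b
        simp only [Set.mem_univ, iff_true]
        by_cases hb : b = x
        · exact ⟨1, by simp [hb]⟩
        · obtain ⟨r, hr, hrb⟩ := htrans _ b hhx hb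
          exact ⟨⟨r * h, H.mul_mem (hRH hr) hh⟩, hrb⟩
      have h5H : 5 ∣ Nat.card H := by
        classical
        have := MulAction.card_orbit_mul_card_stabilizer_eq_card_group H x
        simp only [← Nat.card_eq_fintype_card] at this
        rw [horbit] at this
        have h6 : Nat.card (Set.univ : Set Ω) = 5 := by
          rw [Nat.card_coe_set_eq, Set.ncard_univ, Nat.card_eq_fintype_card, hn5]
        rw [h6] at this
        exact ⟨_, this.symm⟩
      exact Nat.Coprime.mul_dvd_of_dvd_of_dvd (by norm_num : Nat.Coprime 4 5) h4H h5H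
  -- the stabiliser of `x` is the unique coatom
  let M : Subgroup (alternatingGroup Ω) := MulAction.stabilizer (alternatingGroup Ω) x
  have hmemM : ∀ σ : alternatingGroup Ω, σ ∈ M ↔ (σ : Perm Ω) x = x := fun σ => Iff.rfl
  have hRM : (R : Subgroup (alternatingGroup Ω)) ≤ M := fun r hr => hx r (hRle r hr)
  have hMtop : M ≠ ⊤ := by
    intro h
    have hcard : 2 < Fintype.card Ω := by omega
    obtain ⟨a, b, hax, hbx, hab⟩ : ∃ a b : Ω, a ≠ x ∧ b ≠ x ∧ a ≠ b := by
      obtain ⟨a, hax⟩ := Fintype.exists_ne_of_one_lt_card (by omega : 1 < Fintype.card Ω) x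
      have : (({x, a} : Finset Ω)ᶜ).Nonempty := by
        rw [← Finset.card_pos, Finset.card_compl]
        have : ({x, a} : Finset Ω).card ≤ 2 := Finset.card_le_two
        omega
      obtain ⟨b, hb⟩ := this
      simp only [Finset.mem_compl, Finset.mem_insert, Finset.mem_singleton, not_or] at hb
      exact ⟨a, b, hax, hb.1, Ne.symm hb.2⟩
    have hev : swap x a * swap x b ∈ alternatingGroup Ω := by
      rw [Perm.mem_alternatingGroup, map_mul, Perm.sign_swap (Ne.symm hax), Perm.sign_swap (Ne.symm hbx)]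
      simp
    have : (⟨_, hev⟩ : alternatingGroup Ω) ∈ M := by rw [h]; trivial
    rw [hmemM] at this
    have h2 : (swap x a * swap x b) x = b := by
      rw [Perm.mul_apply, swap_apply_left, swap_apply_of_ne_of_ne hbx (Ne.symm hab)]
    exact hbx (h2.symm.trans this)
  have hcoat : IsCoatom M := by
    refine ⟨hMtop, fun H hlt => hkey H (hRM.trans hlt.le) ?_⟩
    obtain ⟨h, hh, hnot⟩ := SetLike.exists_of_lt hlt
    exact ⟨h, hh, fun hh' => hnot ((hmemM h).mpr hh')⟩
  refine ⟨M, ⟨hcoat, hRM⟩, ?_⟩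
  rintro M' ⟨hc, hle⟩
  have hle' : M' ≤ M := by
    intro y hy
    by_contra hyM
    exact hc.1 (hkey M' hle ⟨y, hy, fun h => hyM ((hmemM y).mpr h)⟩)
  by_contra hne
  exact hMtop (hc.2 M (lt_of_le_of_ne hle' hne))

/-- The subgroup preserving the partition of `Ω` into `D` and its complement. -/
def pairStab (D : Set Ω) : Subgroup (Perm Ω) where
  carrier := {σ | ∀ u v, (u ∈ D ↔ v ∈ D) ↔ (σ u ∈ D ↔ σ v ∈ D)}
  mul_mem' := by
    intro a b ha hb u v
    rw [hb u v, ha (b u) (b v)]
    rfl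
  one_mem' := fun u v => Iff.rfl
  inv_mem' := by
    intro a ha u v
    have := ha (a⁻¹ u) (a⁻¹ v)
    have e1 : a (a⁻¹ u) = u := by simp
    have e2 : a (a⁻¹ v) = v := by simp
    rw [e1, e2] at this
    exact this.symm

theorem mem_pairStab {D : Set Ω} {σ : Perm Ω} :
    σ ∈ pairStab D ↔ ∀ u v, (u ∈ D ↔ v ∈ D) ↔ (σ u ∈ D ↔ σ v ∈ D) := Iff.rfl

theorem swap_mem_pairStab {D : Set Ω} {u v : Ω} (h : u ∈ D ↔ v ∈ D) : swap u v ∈ pairStab D := by
  have key : ∀ w, swap u v w ∈ D ↔ w ∈ D := by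
    intro w
    by_cases h1 : w = u
    · subst h1; rw [swap_apply_left]; exact h.symm
    · by_cases h2 : w = v
      · subst h2; rw [swap_apply_right]; exact h
      · rw [swap_apply_of_ne_of_ne h1 h2]
  intro a b
  rw [key, key]

/-- The subgroup preserving the transpositions in `R`. -/
def pairPres (R : Subgroup (Perm Ω)) : Subgroup (Perm Ω) where
  carrier := {σ | ∀ a b, swap a b ∈ R ↔ swap (σ a) (σ b) ∈ R}
  mul_mem' := by
    intro x y hx hy a b
    rw [hy a b, hx (y a) (y b)]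
    rfl
  one_mem' := fun a b => Iff.rfl
  inv_mem' := by
    intro x hx a b
    have := hx (x⁻¹ a) (x⁻¹ b)
    have e1 : x (x⁻¹ a) = a := by simp
    have e2 : x (x⁻¹ b) = b := by simp
    rw [e1, e2] at this
    exact this.symm

theorem mem_pairPres {R : Subgroup (Perm Ω)} {σ : Perm Ω} :
    σ ∈ pairPres R ↔ ∀ a b, swap a b ∈ R ↔ swap (σ a) (σ b) ∈ R := Iff.rfl

theorem le_pairPres (R : Subgroup (Perm Ω)) : R ≤ pairPres R := by
  intro r hr a b
  rw [swap_apply_apply]
  constructor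
  · intro h
    exact R.mul_mem (R.mul_mem hr h) (R.inv_mem hr)
  · intro h
    have := R.mul_mem (R.mul_mem (R.inv_mem hr) h) hr
    simpa [mul_assoc] using this

/-- Good subsets for the even degree case. -/
structure GoodSet (R : Subgroup (Perm Ω)) (D : Set Ω) : Prop where
  inv : ∀ r ∈ R, ∀ u v, (u ∈ D ↔ v ∈ D) → (r u ∈ D ↔ r v ∈ D)
  cl : ∀ z ∈ D, ∀ z', swap z z' ∈ R → z' ∈ D
  ne : ∃ z, z ∈ D
  ne' : ∃ z, z ∉ D

theorem GoodSet.compl {R : Subgroup (Perm Ω)} {D : Set Ω} (h : GoodSet R D) : GoodSet R Dᶜ := by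
  refine ⟨?_, ?_, ?_, ?_⟩
  · intro r hr u v huv
    have h1 : u ∈ D ↔ v ∈ D := by
      simpa [Set.mem_compl_iff, not_iff_not] using huv
    have := h.inv r hr u v h1
    simpa [Set.mem_compl_iff, not_iff_not] using this
  · intro z hz z' hs hz'
    apply hz
    exact h.cl z' hz' z (by rwa [swap_comm])
  · obtain ⟨z, hz⟩ := h.ne'
    exact ⟨z, hz⟩
  · obtain ⟨z, hz⟩ := h.ne
    exact ⟨z, fun h' => h' hz⟩

theorem exists_goodSet (R : Sylow 2 (Perm Ω)) (hall : ∀ z, ∃ z', z' ≠ z ∧ swap z z' ∈ (R : Subgroup (Perm Ω)))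
    (hcard : 3 ≤ Fintype.card Ω) : ∃ D : Set Ω, GoodSet (R : Subgroup (Perm Ω)) D := by
  classical
  have hP := maxIn_of_sylow R
  obtain ⟨a₀⟩ : Nonempty Ω := Fintype.card_pos_iff.mp (by omega)
  by_cases htr : ∀ b, ∃ r ∈ (R : Subgroup (Perm Ω)), r a₀ = b
  · -- the transitive case
    obtain ⟨a₁, ha₁, hsa⟩ := hall a₀
    let S : Subgroup (R : Subgroup (Perm Ω)) :=
      { carrier := {r | (r : Perm Ω) a₀ = a₀ ∨ (r : Perm Ω) a₀ = a₁}
        mul_mem' := by
          have hpres : ∀ r : (R : Subgroup (Perm Ω)), (r : Perm Ω) a₀ = a₀ → (r : Perm Ω) a₁ = a₁ := by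
            intro r hr
            by_contra hne
            have h1 : swap a₀ ((r : Perm Ω) a₁) ∈ (R : Subgroup (Perm Ω)) := by
              have := (le_pairPres (R : Subgroup (Perm Ω)) r.2 a₀ a₁).mp hsa
              rwa [hr] at this
            have h2 : (r : Perm Ω) a₁ ≠ a₀ := by
              intro h3
              apply ha₁
              exact (r : Perm Ω).injective (h3.trans hr.symm)
            exact hne (partner_unique hP.isP (Ne.symm ha₁) (Ne.symm h2) hsa h1)
          have hpres2 : ∀ r : (R : Subgroup (Perm Ω)), (r : Perm Ω) a₀ = a₁ → (r : Perm Ω) a₁ = a₀ := by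
            intro r hr
            by_contra hne
            have h1 : swap a₁ ((r : Perm Ω) a₁) ∈ (R : Subgroup (Perm Ω)) := by
              have := (le_pairPres (R : Subgroup (Perm Ω)) r.2 a₀ a₁).mp hsa
              rwa [hr] at this
            have h2 : (r : Perm Ω) a₁ ≠ a₁ := by
              intro h3
              apply ha₁
              exact (r : Perm Ω).injective (h3.trans hr.symm)
            have h3 : swap a₁ a₀ ∈ (R : Subgroup (Perm Ω)) := by rwa [swap_comm]
            exact hne (partner_unique hP.isP ha₁ (Ne.symm h2) h3 h1)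
          rintro x y (hx | hx) (hy | hy)
          · left
            show (x : Perm Ω) ((y : Perm Ω) a₀) = a₀
            rw [hy, hx]
          · right
            show (x : Perm Ω) ((y : Perm Ω) a₀) = a₁
            rw [hy, hpres x hx]
          · right
            show (x : Perm Ω) ((y : Perm Ω) a₀) = a₁
            rw [hy, hx]
          · left
            show (x : Perm Ω) ((y : Perm Ω) a₀) = a₀
            rw [hy, hpres2 x hx]
        one_mem' := Or.inl rfl
        inv_mem' := by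
          have hpres2 : ∀ r : (R : Subgroup (Perm Ω)), (r : Perm Ω) a₀ = a₁ → (r : Perm Ω) a₁ = a₀ := by
            intro r hr
            by_contra hne
            have h1 : swap a₁ ((r : Perm Ω) a₁) ∈ (R : Subgroup (Perm Ω)) := by
              have := (le_pairPres (R : Subgroup (Perm Ω)) r.2 a₀ a₁).mp hsa
              rwa [hr] at this
            have h2 : (r : Perm Ω) a₁ ≠ a₁ := by
              intro h3
              apply ha₁
              exact (r : Perm Ω).injective (h3.trans hr.symm)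
            have h3 : swap a₁ a₀ ∈ (R : Subgroup (Perm Ω)) := by rwa [swap_comm]
            exact hne (partner_unique hP.isP ha₁ (Ne.symm h2) h3 h1)
          rintro x (hx | hx)
          · left
            show (x : Perm Ω)⁻¹ a₀ = a₀
            rw [Perm.inv_eq_iff_eq]
            exact hx.symm
          · right
            show (x : Perm Ω)⁻¹ a₀ = a₁
            rw [Perm.inv_eq_iff_eq]
            exact (hpres2 x hx).symm }
    have hmemS : ∀ r : (R : Subgroup (Perm Ω)), r ∈ S ↔ ((r : Perm Ω) a₀ = a₀ ∨ (r : Perm Ω) a₀ = a₁) := fun r => Iff.rfl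
    have hStop : S ≠ ⊤ := by
      have hc : (({a₀, a₁} : Finset Ω)ᶜ).Nonempty := by
        rw [← Finset.card_pos, Finset.card_compl]
        have : ({a₀, a₁} : Finset Ω).card ≤ 2 := Finset.card_le_two
        omega
      obtain ⟨b, hb⟩ := hc
      simp only [Finset.mem_compl, Finset.mem_insert, Finset.mem_singleton, not_or] at hb
      obtain ⟨r, hr, hrb⟩ := htr b
      intro h
      have : (⟨r, hr⟩ : (R : Subgroup (Perm Ω))) ∈ S := by rw [h]; trivial
      rcases (hmemS _).mp this with h1 | h1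
      · exact hb.1 (hrb.symm.trans h1)
      · exact hb.2 (hrb.symm.trans h1)
    obtain ⟨R₀, hR₀, hSR₀⟩ := (eq_top_or_exists_le_coatom S).resolve_left hStop
    have hidx : R₀.index = 2 := Cfsg.Agent.Lib.PGroup.index_eq_prime_of_isCoatom R.isPGroup' hR₀
    let D : Set Ω := {z | ∃ r ∈ R₀, ((r : (R : Subgroup (Perm Ω))) : Perm Ω) a₀ = z}
    have hmemD : ∀ t : (R : Subgroup (Perm Ω)), (t : Perm Ω) a₀ ∈ D ↔ t ∈ R₀ := by
      intro t
      constructor
      · rintro ⟨r, hr, hrt⟩
        have h1 : r⁻¹ * t ∈ S := by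
          left
          show (r : Perm Ω)⁻¹ ((t : Perm Ω) a₀) = a₀
          rw [Perm.inv_eq_iff_eq]
          exact hrt.symm
        have h2 := R₀.mul_mem hr (hSR₀ h1)
        simpa using h2
      · intro h
        exact ⟨t, h, rfl⟩
    refine ⟨D, ?_, ?_, ?_, ?_⟩
    · intro r hr u v huv
      obtain ⟨t, ht, rfl⟩ := htr u
      obtain ⟨t', ht', rfl⟩ := htr v
      have h1 := hmemD ⟨t, ht⟩
      have h2 := hmemD ⟨t', ht'⟩
      have h3 := hmemD (⟨r, hr⟩ * ⟨t, ht⟩)
      have h4 := hmemD (⟨r, hr⟩ * ⟨t', ht'⟩)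
      have h5 := Subgroup.mul_mem_iff_of_index_two hidx (a := (⟨r, hr⟩ : (R : Subgroup (Perm Ω)))) (b := ⟨t, ht⟩)
      have h6 := Subgroup.mul_mem_iff_of_index_two hidx (a := (⟨r, hr⟩ : (R : Subgroup (Perm Ω)))) (b := ⟨t', ht'⟩)
      have h7 : ∀ s : Perm Ω, ∀ hs : s ∈ (R : Subgroup (Perm Ω)), (r (s a₀) ∈ D ↔ (⟨r, hr⟩ * ⟨s, hs⟩ : (R : Subgroup (Perm Ω))) ∈ R₀) := by
        intro s hs
        exact hmemD (⟨r, hr⟩ * ⟨s, hs⟩)
      rw [h7 t ht, h7 t' ht', h5, h6]
      simp only at h1 h2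
      rw [← h1, ← h2, huv]
    · rintro z ⟨r, hr, rfl⟩ z' hs
      by_cases hz' : z' = ((r : (R : Subgroup (Perm Ω))) : Perm Ω) a₀
      · rw [hz']
        exact ⟨r, hr, rfl⟩
      · have h1 := (le_pairPres (R : Subgroup (Perm Ω)) (Subgroup.inv_mem _ r.2) _ _).mp hs
        have h2 : ((r : (R : Subgroup (Perm Ω))) : Perm Ω)⁻¹ ((r : Perm Ω) a₀) = a₀ := by simp
        rw [h2] at h1
        have h3 : ((r : (R : Subgroup (Perm Ω))) : Perm Ω)⁻¹ z' ≠ a₀ := by
          intro h4
          apply hz'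
          rw [Perm.inv_eq_iff_eq] at h4
          exact h4
        have h4 := partner_unique hP.isP (Ne.symm ha₁) (Ne.symm h3) hsa h1
        rw [Perm.inv_eq_iff_eq] at h4
        rw [h4]
        have hτ : (⟨swap a₀ a₁, hsa⟩ : (R : Subgroup (Perm Ω))) ∈ S := Or.inr (swap_apply_left _ _)
        refine ⟨r * ⟨swap a₀ a₁, hsa⟩, R₀.mul_mem hr (hSR₀ hτ), ?_⟩
        show (r : Perm Ω) (swap a₀ a₁ a₀) = _
        rw [swap_apply_left]
    · exact ⟨a₀, 1, R₀.one_mem, rfl⟩
    · obtain ⟨t, ht⟩ := SetLike.exists_not_mem_of_ne_top R₀ hR₀.1 rfl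
      refine ⟨(t : Perm Ω) a₀, ?_⟩
      rw [hmemD]
      exact ht
  · -- the intransitive case
    push Not at htr
    obtain ⟨b, hb⟩ := htr
    let D : Set Ω := {z | ∃ r ∈ (R : Subgroup (Perm Ω)), r a₀ = z}
    have hinv : ∀ r ∈ (R : Subgroup (Perm Ω)), ∀ u, r u ∈ D ↔ u ∈ D := by
      intro r hr u
      constructor
      · rintro ⟨t, ht, htu⟩
        refine ⟨r⁻¹ * t, Subgroup.mul_mem _ (Subgroup.inv_mem _ hr) ht, ?_⟩
        rw [Perm.mul_apply, Perm.inv_eq_iff_eq]
        exact htu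
      · rintro ⟨t, ht, rfl⟩
        exact ⟨r * t, Subgroup.mul_mem _ hr ht, rfl⟩
    refine ⟨D, ?_, ?_, ⟨a₀, 1, Subgroup.one_mem _, rfl⟩, ⟨b, ?_⟩⟩
    · intro r hr u v huv
      rw [hinv r hr, hinv r hr]
      exact huv
    · intro z hz z' hs
      have := (hinv _ hs z).mpr hz
      rwa [swap_apply_left] at this
    · rintro ⟨r, hr, hrb⟩
      exact hb r hr hrb

/-- The forward direction in the symmetric group. -/
theorem sym_forward (hn5 : 5 ≤ Fintype.card Ω) (hform : ¬ ∃ k, 2 ≤ k ∧ Fintype.card Ω = 2 ^ k + 1)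
    (R : Sylow 2 (Perm Ω)) : ∃ H₁ H₂ : Subgroup (Perm Ω), H₁ ≠ ⊤ ∧ H₂ ≠ ⊤ ∧ H₁ ⊔ H₂ = ⊤ ∧
      (R : Subgroup (Perm Ω)) ≤ H₁ ∧ (R : Subgroup (Perm Ω)) ≤ H₂ := by
  classical
  have hP := maxIn_of_sylow R
  rcases Nat.even_or_odd (Fintype.card Ω) with heven | hodd
  · -- even degree
    have hall : ∀ z, ∃ z', z' ≠ z ∧ swap z z' ∈ (R : Subgroup (Perm Ω)) := fun z =>
      exists_partner hP z (no_fixed_of_even R heven z)
    obtain ⟨D₀, hD₀⟩ := exists_goodSet R hall (by omega)
    -- one of `D₀`, its complement has three elements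
    obtain ⟨D, hD, hD3⟩ : ∃ D : Set Ω, GoodSet (R : Subgroup (Perm Ω)) D ∧ 2 < D.ncard := by
      by_cases h3 : 2 < D₀.ncard
      · exact ⟨D₀, hD₀, h3⟩
      · refine ⟨D₀ᶜ, hD₀.compl, ?_⟩
        have := Set.ncard_add_ncard_compl D₀
        rw [Nat.card_eq_fintype_card] at this
        omega
    obtain ⟨a, b, c₀, ha, hb, hc₀, hab, hac₀, hbc₀⟩ := (Set.two_lt_ncard_iff).mp hD3
    set p := a with hp_def
    obtain ⟨p', hp', hsp⟩ := hall p
    have hp'D : p' ∈ D := hD.cl p ha p' hsp
    obtain ⟨c, hcD, hcp, hcp'⟩ : ∃ c ∈ D, c ≠ p ∧ c ≠ p' := by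
      by_cases h1 : b = p'
      · exact ⟨c₀, hc₀, Ne.symm hac₀, fun h => hbc₀ (h1.trans h.symm)⟩
      · exact ⟨b, hb, Ne.symm hab, h1⟩
    obtain ⟨c', hc', hsc⟩ := hall c
    have hc'D : c' ∈ D := hD.cl c hcD c' hsc
    have hc'p : c' ≠ p := by
      intro h
      rw [h] at hsc
      exact hcp' (partner_unique hP.isP (Ne.symm hp') (Ne.symm hcp) hsp (by rwa [swap_comm]))
    have hc'p' : c' ≠ p' := by
      intro h
      rw [h] at hsc
      exact hcp (partner_unique hP.isP hp' (Ne.symm hcp') (by rwa [swap_comm]) (by rwa [swap_comm]))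
    obtain ⟨z, hz⟩ := hD.ne'
    obtain ⟨z', hz', hsz⟩ := hall z
    have hz'D : z' ∉ D := by
      intro h
      exact hz (hD.cl z' h z (by rwa [swap_comm]))
    have hne : ∀ {u v : Ω}, u ∈ D → v ∉ D → u ≠ v := by
      rintro u v hu hv rfl
      exact hv hu
    -- the element `σ`
    have hcz := hne hcD hz
    have hcz' := hne hcD hz'D
    have hc'z := hne hc'D hz
    have hc'z' := hne hc'D hz'D
    have hpz := hne ha hz
    have hpz' := hne ha hz'D
    have hp'z := hne hp'D hz
    have hp'z' := hne hp'D hz'D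
    let σ : Perm Ω := swap c z * swap c' z'
    have hσapply : ∀ w, w ≠ c → w ≠ c' → w ≠ z → w ≠ z' → σ w = w := by
      intro w h1 h2 h3 h4
      show swap c z (swap c' z' w) = w
      rw [swap_apply_of_ne_of_ne h2 h4, swap_apply_of_ne_of_ne h1 h3]
    have hσc : σ c = z := by
      show swap c z (swap c' z' c) = z
      rw [swap_apply_of_ne_of_ne (Ne.symm hc') hcz', swap_apply_left]
    have hσc' : σ c' = z' := by
      show swap c z (swap c' z' c') = z'
      rw [swap_apply_left, swap_apply_of_ne_of_ne (Ne.symm hcz') hz']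
    have hσz : σ z = c := by
      show swap c z (swap c' z' z) = c
      rw [swap_apply_of_ne_of_ne (Ne.symm hc'z) (Ne.symm hz'), swap_apply_right]
    have hσz' : σ z' = c' := by
      show swap c z (swap c' z' z') = c'
      rw [swap_apply_right, swap_apply_of_ne_of_ne hc' hc'z]
    have hσσ : ∀ w, σ (σ w) = w := by
      intro w
      by_cases h1 : w = c
      · rw [h1, hσc, hσz]
      by_cases h2 : w = c'
      · rw [h2, hσc', hσz']
      by_cases h3 : w = z
      · rw [h3, hσz, hσc]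
      by_cases h4 : w = z'
      · rw [h4, hσz', hσc']
      rw [hσapply w h1 h2 h3 h4, hσapply w h1 h2 h3 h4]
    have hσpres : ∀ u v, swap u v ∈ (R : Subgroup (Perm Ω)) → swap (σ u) (σ v) ∈ (R : Subgroup (Perm Ω)) := by
      intro u v huv
      by_cases hne' : u = v
      · rw [hne', swap_self]
        exact Subgroup.one_mem _
      by_cases h1 : u = c
      · have : v = c' := by
          rw [h1] at huv hne'
          exact partner_unique hP.isP (Ne.symm hc') (Ne.symm (Ne.symm hne')) hsc huv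
        rw [h1, this, hσc, hσc']; exact hsz
      by_cases h2 : u = c'
      · have : v = c := by
          rw [h2] at huv hne'
          exact partner_unique hP.isP hc' (Ne.symm (Ne.symm hne')) (by rwa [swap_comm]) huv
        rw [h2, this, hσc', hσc, swap_comm]; exact hsz
      by_cases h3 : u = z
      · have : v = z' := by
          rw [h3] at huv hne'
          exact partner_unique hP.isP (Ne.symm hz') (Ne.symm (Ne.symm hne')) hsz huv
        rw [h3, this, hσz, hσz']; exact hsc
      by_cases h4 : u = z'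
      · have : v = z := by
          rw [h4] at huv hne'
          exact partner_unique hP.isP hz' (Ne.symm (Ne.symm hne')) (by rwa [swap_comm]) huv
        rw [h4, this, hσz', hσz, swap_comm]; exact hsc
      have h5 : v ≠ c := by
        rintro rfl
        exact h2 (partner_unique hP.isP (Ne.symm hc') (Ne.symm hne') hsc (by rwa [swap_comm]))
      have h6 : v ≠ c' := by
        rintro rfl
        exact h1 (partner_unique hP.isP hc' (Ne.symm hne') (by rwa [swap_comm]) (by rwa [swap_comm]))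
      have h7 : v ≠ z := by
        rintro rfl
        exact h4 (partner_unique hP.isP (Ne.symm hz') (Ne.symm hne') hsz (by rwa [swap_comm]))
      have h8 : v ≠ z' := by
        rintro rfl
        exact h3 (partner_unique hP.isP hz' (Ne.symm hne') (by rwa [swap_comm]) (by rwa [swap_comm]))
      rw [hσapply u h1 h2 h3 h4, hσapply v h5 h6 h7 h8]
      exact huv
    have hσW : σ ∈ pairPres (R : Subgroup (Perm Ω)) := by
      intro u v
      refine ⟨hσpres u v, fun h => ?_⟩
      have := hσpres _ _ h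
      rwa [hσσ, hσσ] at this
    refine ⟨pairPres (R : Subgroup (Perm Ω)), pairStab D, ?_, ?_, ?_, le_pairPres _, ?_⟩
    · -- `W` is proper
      intro htop
      have hmem : swap p c ∈ pairPres (R : Subgroup (Perm Ω)) := by rw [htop]; trivial
      have h1 := (hmem p p').mp hsp
      rw [swap_apply_left, swap_apply_of_ne_of_ne hp' (Ne.symm hcp')] at h1
      exact hc'p' (partner_unique hP.isP (Ne.symm hc') hcp' hsc h1).symm
    · -- `pairStab D` is proper
      intro htop
      have hmem : swap p z ∈ pairStab D := by rw [htop]; trivial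
      have h1 := (hmem p c).mp ⟨fun _ => hcD, fun _ => ha⟩
      rw [swap_apply_left, swap_apply_of_ne_of_ne hcp hcz] at h1
      exact hz (h1.mpr hcD)
    · -- the join
      rw [eq_top_iff, ← Perm.closure_isSwap, Subgroup.closure_le]
      rintro τ ⟨u, v, huv, rfl⟩
      have hsame : ∀ {u v : Ω}, (u ∈ D ↔ v ∈ D) → swap u v ∈ pairPres (R : Subgroup (Perm Ω)) ⊔ pairStab D := by
        intro u v h
        exact Subgroup.mem_sup_right (swap_mem_pairStab h)
      have hcross : swap p z ∈ pairPres (R : Subgroup (Perm Ω)) ⊔ pairStab D := by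
        have h1 : swap p c ∈ pairPres (R : Subgroup (Perm Ω)) ⊔ pairStab D := hsame ⟨fun _ => hcD, fun _ => ha⟩
        have h2 : σ ∈ pairPres (R : Subgroup (Perm Ω)) ⊔ pairStab D := Subgroup.mem_sup_left hσW
        have h3 := Subgroup.mul_mem _ (Subgroup.mul_mem _ h2 h1) (Subgroup.inv_mem _ h2)
        rw [← swap_apply_apply, hσc, hσapply p (Ne.symm hcp) (Ne.symm hc'p) hpz hpz'] at h3
        exact h3
      have hcross2 : ∀ {u v : Ω}, u ∈ D → v ∉ D → swap u v ∈ pairPres (R : Subgroup (Perm Ω)) ⊔ pairStab D := by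
        intro u v hu hv
        have h1 : swap p u ∈ pairPres (R : Subgroup (Perm Ω)) ⊔ pairStab D := hsame ⟨fun _ => hu, fun _ => ha⟩
        have h2 : swap z v ∈ pairPres (R : Subgroup (Perm Ω)) ⊔ pairStab D :=
          hsame ⟨fun h => absurd h hz, fun h => absurd h hv⟩
        have h3 := Subgroup.mul_mem _ h1 h2
        have h4 := Subgroup.mul_mem _ (Subgroup.mul_mem _ h3 hcross) (Subgroup.inv_mem _ h3)
        rw [← swap_apply_apply] at h4
        have e1 : (swap p u * swap z v) p = u := by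
          rw [Perm.mul_apply, swap_apply_of_ne_of_ne hpz (hne ha hv), swap_apply_left]
        have e2 : (swap p u * swap z v) z = v := by
          rw [Perm.mul_apply, swap_apply_left, swap_apply_of_ne_of_ne (Ne.symm (hne ha hv)) (Ne.symm (hne hu hv))]
        rw [e1, e2] at h4
        exact h4
      by_cases hu : u ∈ D
      · by_cases hv : v ∈ D
        · exact hsame ⟨fun _ => hv, fun _ => hu⟩
        · exact hcross2 hu hv
      · by_cases hv : v ∈ D
        · rw [swap_comm]
          exact hcross2 hv hu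
        · exact hsame ⟨fun h => absurd h hu, fun h => absurd h hv⟩
    · intro r hr u v
      refine ⟨hD.inv r hr u v, fun h => ?_⟩
      have := hD.inv r⁻¹ (Subgroup.inv_mem _ hr) _ _ h
      simpa using this
  · -- odd degree
    obtain ⟨x, hx⟩ := exists_fixed_of_odd R hodd
    have hnt : ∃ a b, a ≠ x ∧ b ≠ x ∧ ¬ ∃ r ∈ (R : Subgroup (Perm Ω)), r a = b := by
      by_contra hno
      push Not at hno
      obtain ⟨a, hax⟩ := Fintype.exists_ne_of_one_lt_card (by omega : 1 < Fintype.card Ω) x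
      have horb : MulAction.orbit (R : Subgroup (Perm Ω)) a = {x}ᶜ := by
        ext b
        simp only [Set.mem_compl_iff, Set.mem_singleton_iff]
        constructor
        · rintro ⟨r, rfl⟩ h
          apply hax
          apply (r : Perm Ω).injective
          rw [hx r r.2]
          exact h
        · intro hb
          obtain ⟨r, hr, hrb⟩ := hno a b hax hb
          exact ⟨⟨r, hr⟩, hrb⟩
      obtain ⟨m, hm⟩ := R.isPGroup'.card_orbit a
      rw [horb] at hm
      have h1 : Nat.card (({x}ᶜ : Set Ω)) = Fintype.card Ω - 1 := by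
        rw [Nat.card_coe_set_eq, Set.ncard_compl, Set.ncard_singleton, Nat.card_eq_fintype_card]
      rw [h1] at hm
      apply hform
      have hm2 : 2 ≤ m := by
        by_contra hlt
        have : 2 ^ m ≤ 2 ^ 1 := Nat.pow_le_pow_right (by norm_num) (by omega)
        omega
      exact ⟨m, hm2, by omega⟩
    obtain ⟨a, b, hax, hbx, hab⟩ := hnt
    let T : Set Ω := {z | ∃ r ∈ (R : Subgroup (Perm Ω)), r a = z}
    have haT : a ∈ T := ⟨1, Subgroup.one_mem _, rfl⟩
    have hbT : b ∉ T := hab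
    have hxT : x ∉ T := by
      rintro ⟨r, hr, hra⟩
      apply hax
      apply r.injective
      rw [hra, hx r hr]
    have hinv : ∀ r ∈ (R : Subgroup (Perm Ω)), ∀ u, r u ∈ T ↔ u ∈ T := by
      intro r hr u
      constructor
      · rintro ⟨t, ht, htu⟩
        refine ⟨r⁻¹ * t, Subgroup.mul_mem _ (Subgroup.inv_mem _ hr) ht, ?_⟩
        rw [Perm.mul_apply, Perm.inv_eq_iff_eq]
        exact htu
      · rintro ⟨t, ht, rfl⟩
        exact ⟨r * t, Subgroup.mul_mem _ hr ht, rfl⟩
    have hne : ∀ {u v : Ω}, u ∈ T → v ∉ T → u ≠ v := by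
      rintro u v hu hv rfl
      exact hv hu
    have hbx' : b ≠ x := hbx
    refine ⟨MulAction.stabilizer (Perm Ω) x, pairStab T, ?_, ?_, ?_, fun r hr => hx r hr, ?_⟩
    · intro htop
      have hmem : swap x b ∈ MulAction.stabilizer (Perm Ω) x := by rw [htop]; trivial
      have h1 : swap x b x = x := hmem
      rw [swap_apply_left] at h1
      exact hbx h1
    · intro htop
      have hmem : swap a b ∈ pairStab T := by rw [htop]; trivial
      -- `T` has a second point
      obtain ⟨r, hr, hra⟩ : ∃ r ∈ (R : Subgroup (Perm Ω)), r a ≠ a := by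
        by_contra hno
        push Not at hno
        exact hax (eq_of_not_moved (maxIn_of_sylow R) hno hx)
      have hrT : r a ∈ T := ⟨r, hr, rfl⟩
      have h1 := (hmem a (r a)).mp ⟨fun _ => hrT, fun _ => haT⟩
      rw [swap_apply_left, swap_apply_of_ne_of_ne hra (hne hrT hbT)] at h1
      exact hbT (h1.mpr hrT)
    · rw [eq_top_iff, ← Perm.closure_isSwap, Subgroup.closure_le]
      rintro τ ⟨u, v, huv, rfl⟩
      have hstab : ∀ {u v : Ω}, u ≠ x → v ≠ x → swap u v ∈ MulAction.stabilizer (Perm Ω) x ⊔ pairStab T := by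
        intro u v hu hv
        apply Subgroup.mem_sup_left
        show swap u v x = x
        exact swap_apply_of_ne_of_ne (Ne.symm hu) (Ne.symm hv)
      have hxb : swap x b ∈ MulAction.stabilizer (Perm Ω) x ⊔ pairStab T :=
        Subgroup.mem_sup_right (swap_mem_pairStab ⟨fun h => absurd h hxT, fun h => absurd h hbT⟩)
      have hxq : ∀ {q : Ω}, q ≠ x → swap x q ∈ MulAction.stabilizer (Perm Ω) x ⊔ pairStab T := by
        intro q hq
        have h1 := hstab hbx hq
        have h2 := Subgroup.mul_mem _ (Subgroup.mul_mem _ h1 hxb) (Subgroup.inv_mem _ h1)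
        rw [← swap_apply_apply, swap_apply_of_ne_of_ne (Ne.symm hbx) (Ne.symm hq), swap_apply_left] at h2
        exact h2
      by_cases hu : u = x
      · rw [hu]
        exact hxq (fun h => huv (hu.trans h.symm))
      · by_cases hv : v = x
        · rw [hv, swap_comm]
          exact hxq hu
        · exact hstab hu hv
    · intro r hr u v
      rw [hinv r hr, hinv r hr]

theorem comap_ne_top {H : Subgroup (Perm Ω)} {τ : Perm Ω} (hτ : τ ∈ H) (hodd : Perm.sign τ = -1) (hH : H ≠ ⊤) :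
    H.comap (alternatingGroup Ω).subtype ≠ ⊤ := by
  intro htop
  apply hH
  rw [eq_top_iff]
  intro σ _
  by_cases hσ : σ ∈ alternatingGroup Ω
  · have : (⟨σ, hσ⟩ : alternatingGroup Ω) ∈ H.comap (alternatingGroup Ω).subtype := by rw [htop]; trivial
    exact this
  · have hσs : Perm.sign σ = -1 := by
      rw [Perm.mem_alternatingGroup] at hσ
      rcases Int.units_eq_one_or (Perm.sign σ) with h | h
      · exact absurd h hσ
      · exact h
    have hev : σ * τ ∈ alternatingGroup Ω := by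
      rw [Perm.mem_alternatingGroup, map_mul, hσs, hodd]
      simp
    have : (⟨σ * τ, hev⟩ : alternatingGroup Ω) ∈ H.comap (alternatingGroup Ω).subtype := by rw [htop]; trivial
    have h2 : σ * τ ∈ H := this
    have h3 := H.mul_mem h2 (H.inv_mem hτ)
    simpa using h3

theorem comap_sup_eq_top {H₁ H₂ : Subgroup (Perm Ω)} {τ : Perm Ω} (h1 : τ ∈ H₁) (h2 : τ ∈ H₂)
    (hodd : Perm.sign τ = -1) (hττ : τ * τ = 1) (hs : H₁ ⊔ H₂ = ⊤) :
    H₁.comap (alternatingGroup Ω).subtype ⊔ H₂.comap (alternatingGroup Ω).subtype = ⊤ := by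
  set L := H₁.comap (alternatingGroup Ω).subtype ⊔ H₂.comap (alternatingGroup Ω).subtype with hL
  have hτinv : τ⁻¹ = τ := inv_eq_of_mul_eq_one_left hττ
  let φ : MulAut (alternatingGroup Ω) := MulAut.conjNormal τ
  have hφ : ∀ a : alternatingGroup Ω, ((φ a : alternatingGroup Ω) : Perm Ω) = τ * a * τ⁻¹ := fun a =>
    MulAut.conjNormal_apply τ a
  have hLφ : L ≤ L.comap φ.toMonoidHom := by
    refine sup_le ?_ ?_
    · intro a ha
      refine Subgroup.mem_sup_left ?_
      show ((φ a : alternatingGroup Ω) : Perm Ω) ∈ H₁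
      rw [hφ]
      exact H₁.mul_mem (H₁.mul_mem h1 ha) (H₁.inv_mem h1)
    · intro a ha
      refine Subgroup.mem_sup_right ?_
      show ((φ a : alternatingGroup Ω) : Perm Ω) ∈ H₂
      rw [hφ]
      exact H₂.mul_mem (H₂.mul_mem h2 ha) (H₂.inv_mem h2)
  set Lp := L.map (alternatingGroup Ω).subtype with hLp
  have hconj : ∀ l ∈ Lp, τ * l * τ⁻¹ ∈ Lp := by
    rintro _ ⟨a, ha, rfl⟩
    exact ⟨φ a, hLφ ha, hφ a⟩
  have hconj' : ∀ l ∈ Lp, τ * l * τ ∈ Lp := by
    intro l hl
    have := hconj l hl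
    rwa [hτinv] at this
  let X : Subgroup (Perm Ω) :=
    { carrier := {σ | σ ∈ Lp ∨ σ * τ ∈ Lp}
      mul_mem' := by
        rintro a b (ha | ha) (hb | hb)
        · exact Or.inl (Lp.mul_mem ha hb)
        · right
          have := Lp.mul_mem ha hb
          rwa [← mul_assoc] at this
        · right
          have := Lp.mul_mem ha (hconj' b hb)
          have e : a * τ * (τ * b * τ) = a * (τ * τ) * b * τ := by group
          rw [e, hττ, mul_one] at this
          exact this
        · left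
          have := Lp.mul_mem ha (hconj' _ hb)
          have e : a * τ * (τ * (b * τ) * τ) = a * (τ * τ) * b * (τ * τ) := by group
          rw [e, hττ, mul_one, mul_one] at this
          exact this
      one_mem' := Or.inl (Lp.one_mem)
      inv_mem' := by
        rintro a (ha | ha)
        · exact Or.inl (Lp.inv_mem ha)
        · right
          have := hconj' _ (Lp.inv_mem ha)
          have e : τ * (a * τ)⁻¹ * τ = (τ * τ⁻¹) * a⁻¹ * τ := by group
          rw [e, mul_inv_cancel, one_mul] at this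
          exact this }
  have hleX : ∀ H : Subgroup (Perm Ω), τ ∈ H → H.comap (alternatingGroup Ω).subtype ≤ L → H ≤ X := by
    intro H hτH hHL σ hσ
    by_cases hev : σ ∈ alternatingGroup Ω
    · left
      exact ⟨⟨σ, hev⟩, hHL hσ, rfl⟩
    · right
      have hσs : Perm.sign σ = -1 := by
        rw [Perm.mem_alternatingGroup] at hev
        rcases Int.units_eq_one_or (Perm.sign σ) with h | h
        · exact absurd h hev
        · exact h
      have hev2 : σ * τ ∈ alternatingGroup Ω := by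
        rw [Perm.mem_alternatingGroup, map_mul, hσs, hodd]
        simp
      exact ⟨⟨σ * τ, hev2⟩, hHL (H.mul_mem hσ hτH), rfl⟩
  have hX : X = ⊤ := by
    rw [eq_top_iff, ← hs]
    exact sup_le (hleX H₁ h1 le_sup_left) (hleX H₂ h2 le_sup_right)
  rw [eq_top_iff]
  intro a _
  have : (a : Perm Ω) ∈ X := by rw [hX]; trivial
  rcases this with h | h
  · obtain ⟨b, hb, hba⟩ := h
    have : b = a := Subtype.ext hba
    rwa [← this]
  · exfalso
    obtain ⟨b, _, hba⟩ := h
    have h3 : Perm.sign ((b : Perm Ω)) = 1 := b.2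
    have h4 : ((alternatingGroup Ω).subtype b) = b := rfl
    rw [h4] at hba
    rw [hba, map_mul, a.2, hodd] at h3
    simp at h3

theorem alt_forward (hn5 : 5 ≤ Fintype.card Ω) (hform : ¬ ∃ k, 2 ≤ k ∧ Fintype.card Ω = 2 ^ k + 1)
    (R : Sylow 2 (alternatingGroup Ω)) :
    ¬ ∃! M : Subgroup (alternatingGroup Ω), IsCoatom M ∧ (R : Subgroup (alternatingGroup Ω)) ≤ M := by
  obtain ⟨RS, hRS⟩ := exists_sylow_over R
  obtain ⟨H₁, H₂, h1, h2, hs, hR1, hR2⟩ := sym_forward hn5 hform RS
  have hcard6 : 6 ≤ Fintype.card Ω := by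
    by_contra hlt
    apply hform
    exact ⟨2, le_refl _, by omega⟩
  obtain ⟨x, y, hxy, hτ⟩ := exists_pair hcard6 (maxIn_of_sylow RS)
  have hodd : Perm.sign (swap x y) = -1 := Perm.sign_swap hxy
  have hRle : ∀ p ∈ (R : Subgroup (alternatingGroup Ω)), (p : Perm Ω) ∈ (RS : Subgroup (Perm Ω)) :=
    fun p hp => ((hRS p).mpr ⟨p, hp, rfl⟩).1
  apply not_unique_of_sup (H₁ := H₁.comap (alternatingGroup Ω).subtype) (H₂ := H₂.comap (alternatingGroup Ω).subtype)
  · exact comap_ne_top (hR1 hτ) hodd h1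
  · exact comap_ne_top (hR2 hτ) hodd h2
  · exact comap_sup_eq_top (hR1 hτ) (hR2 hτ) hodd (swap_mul_self x y) hs
  · exact fun p hp => hR1 (hRle p hp)
  · exact fun p hp => hR2 (hRle p hp)

theorem sym_forward' (hn5 : 5 ≤ Fintype.card Ω) (hform : ¬ ∃ k, 2 ≤ k ∧ Fintype.card Ω = 2 ^ k + 1)
    (R : Sylow 2 (Perm Ω)) :
    ¬ ∃! M : Subgroup (Perm Ω), IsCoatom M ∧ (R : Subgroup (Perm Ω)) ≤ M := by
  obtain ⟨H₁, H₂, h1, h2, hs, hR1, hR2⟩ := sym_forward hn5 hform R
  exact not_unique_of_sup h1 h2 hs hR1 hR2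

end Cfsg.Agent.Lib.KnownSimple.SylowMax
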